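import Cfsg.Agent.H179.SLC.HBound

/-!
# `H¹(SL₂(16), V_b)` (helper179, for S5916)

`rel_zero` : the relations of a cocycle which vanishes on the torus, for `|F| = 16` (certificates).
-/

set_option autoImplicit false
set_option linter.unusedSectionVars false

namespace Cfsg.Agent.H179.SLD

open Matrix Cfsg.Agent.H943.SL2Rel Cfsg.Agent.H943.RepAdd Cfsg.Agent.H943.SL2Mod
open Cfsg.Agent.H179.SLC (oc oc_spec ex bool_aux)

/-- the coefficient of `γ x` in the relation `(m', j)` -/
def cf (b m' j x : ℕ) : Bool :=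
  (decide (x = m') && oc 4 (ex 15 b m') j) ^^ (decide (ex 15 b x = j) && oc 4 (b - x) (b - m'))

/-- the check of a certificate; `ex0` : the exponent which is not eliminated -/
def chk (b ex0 : ℕ) : List (ℕ × ℕ × ℕ) → List ℕ → Bool
  | [], Z => (List.range (b + 1)).all fun x => x == ex0 || !oc 4 b x || Z.contains x
  | (m', j, x) :: l, Z => Nat.ble m' b && Nat.ble 1 j && Nat.ble j 14 && Nat.ble x b && cf b m' j x &&
      ((List.range (b + 1)).all fun y => y == x || !cf b m' j y || !oc 4 b y || Z.contains y) && chk b ex0 l (x :: Z)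

section Sound

variable {k : Type*} [Field k] [CharP k 2]

/-- the relations -/
def Rel (b : ℕ) (γ : ℕ → k) : Prop := (∀ m, (b.choose m : k) = 0 → γ m = 0) ∧
  ∀ m' ≤ b, ∀ j, j < 15 → γ m' * ((ex 15 b m').choose j : k) = (if j = 0 then γ m' else 0) +
    ∑ m ∈ Finset.range (b + 1), if ex 15 b m = j then γ m * ((b - m).choose (b - m') : k) else 0

theorem Rel.sum_cf {b : ℕ} (hb : b < 15) {γ : ℕ → k} (h : Rel b γ) {m' j : ℕ} (hm' : m' ≤ b) (hj1 : 1 ≤ j) (hj : j < 15) :
    ∑ x ∈ Finset.range (b + 1), (if cf b m' j x then γ x else 0) = 0 := by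
  have h1 := h.2 m' hm' j hj
  rw [if_neg (by omega), zero_add] at h1
  have h2 : γ m' * ((ex 15 b m').choose j : k) =
      ∑ x ∈ Finset.range (b + 1), if x = m' then γ x * ((ex 15 b m').choose j : k) else 0 := by
    rw [Finset.sum_ite_eq' , if_pos (Finset.mem_range.2 (by omega))]
  rw [h2] at h1
  have hex : ex 15 b m' < 16 := by
    have : ex 15 b m' < 15 := Nat.mod_lt _ (by norm_num)
    omega
  have h3 : ∀ x ∈ Finset.range (b + 1), (if cf b m' j x then γ x else 0) =
      (if x = m' then γ x * ((ex 15 b m').choose j : k) else 0) -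
      (if ex 15 b x = j then γ x * ((b - x).choose (b - m') : k) else 0) := by
    intro x hx
    have hx' := Finset.mem_range.1 hx
    have e1 := oc_spec (k := k) 4 (ex 15 b m') j (by norm_num; omega) (by norm_num; omega)
    have e2 := oc_spec (k := k) 4 (b - x) (b - m') (by norm_num; omega) (by norm_num; omega)
    rw [e1, e2]
    unfold cf
    exact bool_aux _ _ _ _ _
  rw [Finset.sum_congr rfl h3, Finset.sum_sub_distrib, h1, sub_self]

theorem chk_sound {b ex0 : ℕ} (hb : b < 15) {γ : ℕ → k} (h : Rel b γ) (l : List (ℕ × ℕ × ℕ)) :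
    ∀ Z : List ℕ, (∀ x ∈ Z, γ x = 0) → chk b ex0 l Z = true → ∀ x ≤ b, x ≠ ex0 → γ x = 0 := by
  have hoc : ∀ y ≤ b, oc 4 b y = false → γ y = 0 := by
    intro y hy h0
    apply h.1
    rw [oc_spec 4 b y (by norm_num; omega) (by norm_num; omega), h0]
    simp
  induction l with
  | nil =>
    intro Z hZ hc x hx hne
    unfold chk at hc
    rw [List.all_eq_true] at hc
    have h1 := hc x (List.mem_range.2 (by omega))
    simp only [Bool.or_eq_true, beq_iff_eq, Bool.not_eq_true', List.contains_iff_mem] at h1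
    rcases h1 with (h1 | h1) | h1
    · exact absurd h1 hne
    · exact hoc x hx h1
    · exact hZ x h1
  | cons s l ih =>
    obtain ⟨m', j, x⟩ := s
    intro Z hZ hc
    unfold chk at hc
    simp only [Bool.and_eq_true, Nat.ble_eq] at hc
    obtain ⟨⟨⟨⟨⟨⟨hm', hj1⟩, hj⟩, hx⟩, hcf⟩, hall⟩, hrest⟩ := hc
    refine ih (x :: Z) ?_ hrest
    intro y hy
    rcases List.mem_cons.1 hy with rfl | hy
    · have h1 := h.sum_cf hb hm' hj1 (by omega)
      rw [Finset.sum_eq_single y] at h1
      · rwa [if_pos hcf] at h1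
      · intro z hz hzy
        by_cases hcz : cf b m' j z = true
        · rw [if_pos hcz]
          have hz' := Finset.mem_range.1 hz
          have h2 := List.all_eq_true.1 hall z (List.mem_range.2 hz')
          simp only [Bool.or_eq_true, beq_iff_eq, Bool.not_eq_true', List.contains_iff_mem] at h2
          rcases h2 with ((h2 | h2) | h2) | h2
          · exact absurd h2 hzy
          · rw [hcz] at h2
            exact absurd h2 (by decide)
          · exact hoc z (by omega) h2
          · exact hZ z h2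
        · rw [if_neg hcz]
      · intro h0
        exact absurd (Finset.mem_range.2 (by omega)) h0
    · exact hZ y hy

end Sound

def certs : List (ℕ × List (ℕ × ℕ × ℕ)) := [
  (1, [(0, 1, 0)]),
  (2, [(0, 2, 0)]),
  (3, [(0, 2, 0), (1, 1, 1), (3, 1, 3), (3, 8, 2)]),
  (4, [(0, 1, 0)]),
  (5, [(0, 1, 0), (1, 2, 1), (4, 1, 4), (5, 2, 5)]),
  (6, [(0, 4, 0), (2, 2, 2), (6, 2, 6), (6, 1, 4)]),
  (7, [(1, 1, 1), (1, 4, 0), (2, 2, 2), (3, 1, 3), (5, 1, 5), (5, 8, 4), (6, 2, 6), (7, 1, 7)]),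
  (8, [(0, 1, 0)]),
  (9, [(0, 1, 0), (8, 1, 8), (9, 8, 9), (9, 4, 1)]),
  (10, [(0, 2, 0), (2, 4, 2), (8, 1, 8), (10, 1, 10)]),
  (11, [(1, 1, 1), (1, 2, 0), (3, 1, 3), (3, 4, 2), (8, 2, 8), (9, 1, 9), (10, 4, 10), (11, 1, 11)]),
  (12, [(0, 1, 0), (4, 1, 4), (12, 4, 12), (12, 2, 8)]),
  (13, [(1, 1, 0), (4, 1, 4), (5, 4, 5), (8, 1, 8), (9, 8, 9), (12, 1, 12), (13, 4, 13), (5, 2, 1)]),
  (14, [(2, 2, 2), (2, 8, 0), (4, 4, 4), (6, 2, 6), (10, 2, 10), (12, 4, 12), (14, 2, 14), (10, 1, 8)])]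

/-- powers of 2 -/
def isP (b : ℕ) : Bool := [1, 2, 4, 8].contains b

theorem certs_ok : certs.all (fun e => chk e.1 (if isP e.1 then e.1 else 16) e.2 []) = true := by decide +kernel

theorem certs_all : (List.range 15).all (fun b => b == 0 || certs.any fun e => e.1 == b) = true := by decide +kernel

theorem rel_zero {k : Type*} [Field k] [CharP k 2] {b : ℕ} (hb0 : 0 < b) (hb : b < 15) {γ : ℕ → k} (h : Rel b γ) :
    ∀ x ≤ b, x ≠ (if isP b then b else 16) → γ x = 0 := by
  have h1 := List.all_eq_true.1 certs_all b (List.mem_range.2 hb)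
  simp only [Bool.or_eq_true, beq_iff_eq, List.any_eq_true] at h1
  rcases h1 with h1 | ⟨e, he, h1⟩
  · omega
  · have h2 := List.all_eq_true.1 certs_ok e he
    rw [h1] at h2
    exact chk_sound hb h e.2 [] (by simp) h2

end Cfsg.Agent.H179.SLD
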