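import Cfsg.Agent.H179.SLD.HBound
import Cfsg.Agent.H179.SLC.Mult

/-!
# Composition multiplicities for `SL₂(16)`, characteristic 2 (helper179, for S5916)

`exists_isMult` : every finite-dimensional module over an algebraically closed field has a multiplicity function `n`:
dimension, multiplicities of the eigenvalues of all semisimple elements, `Z¹`; `IsMult.pressure` :
`n 0 ≤ dim V ^ S + ∑_{i < 4} n (2 ^ i)`.
-/

set_option autoImplicit false
set_option linter.unusedSectionVars false

namespace Cfsg.Agent.H179.SLD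

open Matrix Cfsg.Agent.H943.SL2Rel Cfsg.Agent.H943.RepAdd Cfsg.Agent.H943.SL2Mod
open Cfsg.Agent.H179.SLC

variable {k : Type*} [Field k] [CharP k 2] [DecidableEq k] {F : Type*} [Field F] [Fintype F] [DecidableEq F] [CharP F 2]
  (ι : F →+* k)

/-- the multiplicity of the eigenvalue `ν` of a semisimple element with the eigenvalue `ζ` on `V_b` -/
def mf (b : ℕ) (ζ ν : k) : ℕ := ((Bn b).filter fun m => ζ ^ m * ζ⁻¹ ^ (b - m) = ν).card

/-- `n` is a multiplicity function of the module -/
structure IsMult {V : Type*} [AddCommGroup V] [Module k V] (ρ : Representation k (SpecialLinearGroup (Fin 2) F) V)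
    (n : ℕ → ℕ) : Prop where
  dim : Module.finrank k V = ∑ b ∈ Finset.range 16, n b * (Bn b).card
  eigen : ∀ (g : SpecialLinearGroup (Fin 2) F) (ζ : k) (N : ℕ), IsSS ι g ζ → ζ ^ N = 1 → (N : k) ≠ 0 → ∀ ν : k, ν ^ N = 1 →
    Module.finrank k (eig ρ g ν) = ∑ b ∈ Finset.range 16, n b * mf b ζ ν
  z1 : Module.finrank k (Z1 ρ) ≤ ∑ b ∈ Finset.range 16, n b * zb b

theorem IsMult.of_iso {V V₂ : Type*} [AddCommGroup V] [Module k V] [AddCommGroup V₂] [Module k V₂]
    {ρ : Representation k (SpecialLinearGroup (Fin 2) F) V} {ρ₂ : Representation k (SpecialLinearGroup (Fin 2) F) V₂}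
    {n : ℕ → ℕ} (h : IsMult ι ρ n) (φ : V ≃ₗ[k] V₂) (hφ : ∀ g x, φ (ρ g x) = ρ₂ g (φ x)) : IsMult ι ρ₂ n where
  dim := by rw [← φ.finrank_eq, h.dim]
  eigen := fun g ζ N hg h1 h2 ν hν => by rw [← finrank_eig_iso ρ ρ₂ φ hφ, h.eigen g ζ N hg h1 h2 ν hν]
  z1 := by rw [← finrank_Z1_iso ρ ρ₂ φ hφ]; exact h.z1

/-- additivity -/
theorem IsMult.add (hι : Function.Injective ι) {V : Type*} [AddCommGroup V] [Module k V] [FiniteDimensional k V]
    {ρ : Representation k (SpecialLinearGroup (Fin 2) F) V} {W : Submodule k V} {hW : ∀ g, ∀ x ∈ W, ρ g x ∈ W}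
    {n₁ n₂ : ℕ → ℕ} (h1 : IsMult ι (subRep ρ W hW) n₁) (h2 : IsMult ι (quotRep ρ W hW) n₂) : IsMult ι ρ (n₁ + n₂) where
  dim := by
    rw [← Submodule.finrank_quotient_add_finrank W, h1.dim, h2.dim, ← Finset.sum_add_distrib]
    refine Finset.sum_congr rfl fun b _ => ?_
    rw [Pi.add_apply]
    ring
  eigen := fun g ζ N hg hζ hN ν hν => by
    have hν0 : ν ≠ 0 := by
      rintro rfl
      by_cases hN0 : N = 0
      · exact hN (by rw [hN0, Nat.cast_zero])
      · rw [zero_pow hN0] at hν
        exact zero_ne_one hν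
    rw [finrank_eig ρ W hW (g := g) (n := N) (by rw [← map_pow, pow_eq_one_of_isSS ι hι hg hζ, map_one]) hN hν hν0,
      h1.eigen g ζ N hg hζ hN ν hν, h2.eigen g ζ N hg hζ hN ν hν, ← Finset.sum_add_distrib]
    refine Finset.sum_congr rfl fun b _ => ?_
    rw [Pi.add_apply]
    ring
  z1 := by
    refine (finrank_Z1_le ρ W hW).trans ((add_le_add h1.z1 h2.z1).trans_eq ?_)
    rw [← Finset.sum_add_distrib]
    refine Finset.sum_congr rfl fun b _ => ?_
    rw [Pi.add_apply]
    ring

theorem sum_single {b : ℕ} (hb : b < 16) (f : ℕ → ℕ) : ∑ c ∈ Finset.range 16, (Pi.single b 1 : ℕ → ℕ) c * f c = f b := by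
  rw [Finset.sum_eq_single b]
  · rw [Pi.single_eq_same, one_mul]
  · intro c _ hc
    rw [Pi.single_eq_of_ne hc, zero_mul]
  · intro h
    exact absurd (Finset.mem_range.2 hb) h

theorem isMult_rb (hq : Fintype.card F = 16) (hι : Function.Injective ι)
    (hs1 : (-1 : k) ^ (Fintype.card F - 1) = 1) {b : ℕ} (hb : b ≤ Fintype.card F - 1) :
    IsMult ι (rb ι 2 hs1 hb) (Pi.single b 1) where
  dim := by rw [sum_single (by omega), finrank_Vb ι 2 hι hs1 hb, Bf_eq (by omega)]
  eigen := fun g ζ N hg hζ hN ν hν => by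
    rw [sum_single (by omega), finrank_eig_ss ι hι hs1 hb hg, Bf_eq (by omega)]
    rfl
  z1 := by
    rw [sum_single (by omega)]
    exact finrank_Z1_rb ι hq hι hs1 hb

theorem isMult_zero {V : Type*} [AddCommGroup V] [Module k V] [Subsingleton V]
    (ρ : Representation k (SpecialLinearGroup (Fin 2) F) V) : IsMult ι ρ 0 where
  dim := by rw [Module.finrank_zero_of_subsingleton]; simp
  eigen := fun g ζ N hg hζ hN ν hν => by rw [Module.finrank_zero_of_subsingleton]; simp
  z1 := by
    have : Subsingleton (Z1 ρ) := ⟨fun x y => Subtype.ext (funext fun g => Subsingleton.elim _ _)⟩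
    rw [Module.finrank_zero_of_subsingleton]
    exact Nat.zero_le _

/-- `-1 = 1` -/
theorem hs_one : (-1 : k) ^ (Fintype.card F - 1) = 1 := by rw [CharTwo.neg_eq, one_pow]

/-- **the pressure inequality** -/
theorem IsMult.pressure {V : Type*} [AddCommGroup V] [Module k V] [FiniteDimensional k V]
    {ρ : Representation k (SpecialLinearGroup (Fin 2) F) V} {n : ℕ → ℕ} (h : IsMult ι ρ n) :
    n 0 ≤ Module.finrank k (fx ρ) + (n 1 + n 2 + n 4 + n 8) := by
  have h1 := finrank_le ρ
  have h2 := h.z1
  rw [h.dim] at h1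
  have h3 : ∑ b ∈ Finset.range 16, n b * zb b + n 0 = ∑ b ∈ Finset.range 16, n b * (Bn b).card +
      (n 1 + n 2 + n 4 + n 8) := by
    have h4 : ∀ b ∈ Finset.range 16, n b * zb b + (if b = 0 then n 0 else 0) =
        n b * (Bn b).card + (if isP b = true then n b else 0) := by
      intro b _
      unfold zb
      by_cases hb : b = 0
      · subst hb
        rw [if_pos rfl, if_pos rfl]
        have h5 : (Bn 0).card = 1 := by decide
        have h6 : isP 0 = false := by decide
        rw [h5, h6]
        simp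
      · rw [if_neg hb, if_neg hb]
        by_cases hp : isP b = true
        · rw [if_pos hp, if_pos hp]; ring
        · rw [if_neg hp, if_neg hp]; ring
    have h5 := Finset.sum_congr rfl h4
    rw [Finset.sum_add_distrib, Finset.sum_add_distrib, Finset.sum_ite_eq', if_pos (Finset.mem_range.2 (by norm_num))] at h5
    have h6 : (Finset.range 16).filter (fun b => isP b = true) = {1, 2, 4, 8} := by decide +kernel
    have h7 : ∑ b ∈ Finset.range 16, (if isP b = true then n b else 0) = n 1 + n 2 + n 4 + n 8 := by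
      rw [← Finset.sum_filter, h6, Finset.sum_insert (by decide), Finset.sum_insert (by decide),
        Finset.sum_insert (by decide), Finset.sum_singleton]
      ring
    rw [h5, h7]
  omega

variable [IsAlgClosed k]

universe v

/-- **every module has a multiplicity function** -/
theorem exists_isMult (hq : Fintype.card F = 16) (hι : Function.Injective ι) {V : Type v} [AddCommGroup V] [Module k V]
    [FiniteDimensional k V] (ρ : Representation k (SpecialLinearGroup (Fin 2) F) V) : ∃ n : ℕ → ℕ, IsMult ι ρ n := by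
  have key : ∀ (d : ℕ) (V : Type v) [AddCommGroup V] [Module k V] [FiniteDimensional k V]
      (ρ : Representation k (SpecialLinearGroup (Fin 2) F) V) (_ : Module.finrank k V = d), ∃ n : ℕ → ℕ, IsMult ι ρ n := by
    intro d
    induction d using Nat.strong_induction_on with
    | _ d ih =>
      intro V _ _ _ ρ hd
      rcases subsingleton_or_nontrivial V with hV | hV
      · exact ⟨0, isMult_zero ι ρ⟩
      · obtain ⟨W, hW, hW0, hmin⟩ := exists_irr_sub ρ
        have hIW : Irr (subRep ρ W hW) := by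
          refine ⟨Submodule.nontrivial_iff_ne_bot.2 hW0, fun W' hW' => ?_⟩
          rcases hmin (W'.map W.subtype) (Submodule.map_subtype_le _ _) (by
            rintro g _ ⟨x, hx, rfl⟩
            exact ⟨_, hW' g x hx, rfl⟩) with h1 | h1
          · left
            rw [eq_bot_iff]
            intro x hx
            have h2 : (x : V) ∈ W'.map W.subtype := ⟨x, hx, rfl⟩
            rw [h1] at h2
            exact (Submodule.mem_bot k).2 (Subtype.ext ((Submodule.mem_bot k).1 h2))
          · right
            rw [eq_top_iff]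
            intro x _
            have h2 : (x : V) ∈ W'.map W.subtype := by rw [h1]; exact x.2
            obtain ⟨y, hy, e⟩ := h2
            rwa [← Subtype.ext (p := fun z => z ∈ W) e]
        have hpos : 0 < Module.finrank k W := by
          have := hIW.1
          exact Module.finrank_pos
        have hadd := Submodule.finrank_quotient_add_finrank W
        obtain ⟨n₂, h2⟩ := ih (Module.finrank k (V ⧸ W)) (by omega) (V ⧸ W) (quotRep ρ W hW) rfl
        obtain ⟨b, hb, φ, hφ⟩ := irr_iso ι 2 (subRep ρ W hW) hι hs_one hIW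
        exact ⟨_, ((isMult_rb ι hq hι hs_one hb).of_iso ι φ hφ).add ι hι h2⟩
  exact key _ V ρ rfl

/-- the submodule version -/
theorem exists_isMult_sub (hq : Fintype.card F = 16) (hι : Function.Injective ι) {V : Type v} [AddCommGroup V] [Module k V]
    [FiniteDimensional k V] (ρ : Representation k (SpecialLinearGroup (Fin 2) F) V) (W : Submodule k V)
    (hW : ∀ g, ∀ x ∈ W, ρ g x ∈ W) : ∃ n₁ n₂ : ℕ → ℕ, IsMult ι (subRep ρ W hW) n₁ ∧ IsMult ι (quotRep ρ W hW) n₂ ∧
      IsMult ι ρ (n₁ + n₂) := by
  obtain ⟨n₁, h1⟩ := exists_isMult ι hq hι (subRep ρ W hW)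
  obtain ⟨n₂, h2⟩ := exists_isMult ι hq hι (quotRep ρ W hW)
  exact ⟨n₁, n₂, h1, h2, h1.add ι hι h2⟩

end Cfsg.Agent.H179.SLD
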